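import Cfsg.Agent.H160.DP.FlagB

/-!
# The mechanism: a factorization `G = P H` with `P` in the normaliser of a Sylow `p`-subgroup and `H` a `p'`-group
(helper160)

* `nxt ρ U c` : the vectors `v` with `[v, U] ≤ c`; it is invariant under the normaliser of `U` in the stabiliser of `c`;
* `triv ρ C` : the elements which act trivially on the factors of the chain `C`; a `p`-group (`isPGroup_triv`);
* `false_of_flag` : `P` fixes a flag `c0 < L0 < W0` of dimensions 1, 2, 3 and `Stab_G(W0)` is transitive on the flags of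
  `W0`: contradiction;
* `false_of_sylow` : the same when `U` is a Sylow subgroup normalised by `P` and `c0`, `L0`, `W0` are obtained from `U`;
* `exists_lift`, `Lift` : passing from a central quotient to the group.
-/

set_option autoImplicit false

namespace Cfsg.Agent.H160.DP

open Module Subgroup
open scoped Pointwise

section nxt

variable {F V : Type*} [Field F] [AddCommGroup V] [Module F V] {G : Type*} [Group G]

/-- the vectors moved by `U` inside `c` -/
def nxt (ρ : G →* (V ≃ₗ[F] V)) (U : Subgroup G) (c : Submodule F V) : Submodule F V where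
  carrier := {v | ∀ u ∈ U, ρ u v - v ∈ c}
  add_mem' := by
    intro v w hv hw u hu
    have h := c.add_mem (hv u hu) (hw u hu)
    have e : ρ u (v + w) - (v + w) = (ρ u v - v) + (ρ u w - w) := by
      rw [map_add]; abel
    rw [e]; exact h
  zero_mem' := by
    intro u _
    simp
  smul_mem' := by
    intro a v hv u hu
    have h := c.smul_mem a (hv u hu)
    have e : ρ u (a • v) - a • v = a • (ρ u v - v) := by
      rw [map_smul, smul_sub]
    rw [e]; exact h

theorem mem_nxt {ρ : G →* (V ≃ₗ[F] V)} {U : Subgroup G} {c : Submodule F V} {v : V} :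
    v ∈ nxt ρ U c ↔ ∀ u ∈ U, ρ u v - v ∈ c := Iff.rfl

/-- `nxt` is invariant under the normaliser of `U` -/
theorem nxt_inv {ρ : G →* (V ≃ₗ[F] V)} {U : Subgroup G} {c : Submodule F V} {g : G}
    (hg : ∀ u ∈ U, g⁻¹ * u * g ∈ U) (hc : ∀ v ∈ c, ρ g v ∈ c) {v : V} (hv : v ∈ nxt ρ U c) : ρ g v ∈ nxt ρ U c := by
  intro u hu
  have h1 := hc _ (hv _ (hg u hu))
  have e : ρ g (ρ (g⁻¹ * u * g) v - v) = ρ u (ρ g v) - ρ g v := by
    rw [map_sub, ← LinearEquiv.mul_apply, ← map_mul, ← LinearEquiv.mul_apply, ← map_mul]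
    congr 3
    group
  rwa [e] at h1

/-- a `p`-group acts trivially on one-dimensional factors -/
theorem le_nxt {p : ℕ} [Fact p.Prime] [CharP F p] {ρ : G →* (V ≃ₗ[F] V)} {U : Subgroup G} (hU : IsPGroup p U)
    {c L : Submodule F V} (hL : ∀ u ∈ U, ∀ v ∈ L, ρ u v ∈ L) (hc : ∀ u ∈ U, ∀ v ∈ c, ρ u v ∈ c)
    (h1 : ∃ v0 ∈ L, ∀ v ∈ L, ∃ a : F, v - a • v0 ∈ c) : L ≤ nxt ρ U c := by
  obtain ⟨v0, hv0, hs⟩ := h1
  by_cases hv0c : v0 ∈ c
  · intro v hv u hu
    obtain ⟨a, ha⟩ := hs v hv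
    have hvc : v ∈ c := by
      have := c.add_mem ha (c.smul_mem a hv0c)
      simpa using this
    exact c.sub_mem (hc u hu v hvc) hvc
  · have key : ∀ u ∈ U, ρ u v0 - v0 ∈ c := by
      intro u hu
      obtain ⟨l, hl⟩ := hs (ρ u v0) (hL u hu v0 hv0)
      have hpow : ∀ m : ℕ, ρ (u ^ m) v0 - l ^ m • v0 ∈ c := by
        intro m
        induction m with
        | zero => simp
        | succ m ih =>
          have h2 := hc u hu _ ih
          have h3 := c.smul_mem (l ^ m) hl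
          have h4 := c.add_mem h2 h3
          have e : ρ u (ρ (u ^ m) v0 - l ^ m • v0) + l ^ m • (ρ u v0 - l • v0) =
              ρ (u ^ (m + 1)) v0 - l ^ (m + 1) • v0 := by
            rw [map_sub, map_smul, pow_succ' u m, map_mul, LinearEquiv.mul_apply, smul_sub, smul_smul, pow_succ]
            abel
          rwa [e] at h4
      obtain ⟨k, hk⟩ := hU ⟨u, hu⟩
      have hk' : u ^ p ^ k = 1 := by simpa using congrArg Subtype.val hk
      have h5 := hpow (p ^ k)
      rw [hk', map_one] at h5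
      have h6 : (1 - l ^ p ^ k) • v0 ∈ c := by
        rw [sub_smul, one_smul]
        exact h5
      have h7 : 1 - l ^ p ^ k = 0 := by
        by_contra h
        apply hv0c
        have := c.smul_mem (1 - l ^ p ^ k)⁻¹ h6
        rwa [smul_smul, inv_mul_cancel₀ h, one_smul] at this
      have h8 : (1 - l) ^ p ^ k = 0 := by
        rw [sub_pow_char_pow, one_pow, h7]
      have h9 : 1 - l = 0 := pow_eq_zero_iff (pow_pos (Fact.out : p.Prime).pos k).ne' |>.1 h8
      have h10 : l = 1 := (sub_eq_zero.1 h9).symm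
      rw [h10, one_smul] at hl
      exact hl
    intro v hv u hu
    obtain ⟨a, ha⟩ := hs v hv
    have h1 := hc u hu _ ha
    have h2 := c.smul_mem a (key u hu)
    have h3 := c.sub_mem (c.add_mem h1 h2) ha
    have e : ρ u (v - a • v0) + a • (ρ u v0 - v0) - (v - a • v0) = ρ u v - v := by
      rw [map_sub, map_smul, smul_sub]
      abel
    rwa [e] at h3

/-- the elements acting trivially on the factors of a chain -/
def triv (ρ : G →* (V ≃ₗ[F] V)) (C : ℕ → Submodule F V) : Subgroup G where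
  carrier := {g | (∀ i, ∀ v ∈ C (i + 1), ρ g v - v ∈ C i) ∧ (∀ i, ∀ v ∈ C (i + 1), ρ g⁻¹ v - v ∈ C i) ∧
    (∀ i, ∀ v ∈ C i, ρ g v ∈ C i) ∧ (∀ i, ∀ v ∈ C i, ρ g⁻¹ v ∈ C i)}
  mul_mem' := by
    rintro g h ⟨h1, h2, h3, h4⟩ ⟨k1, k2, k3, k4⟩
    refine ⟨fun i v hv => ?_, fun i v hv => ?_, fun i v hv => ?_, fun i v hv => ?_⟩
    · have e : ρ (g * h) v - v = (ρ g (ρ h v - v)) + (ρ g v - v) := by
        rw [map_mul, LinearEquiv.mul_apply, map_sub]; abel
      rw [e]
      exact (C i).add_mem (h3 i _ (k1 i v hv)) (h1 i v hv)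
    · have e : ρ (g * h)⁻¹ v - v = (ρ h⁻¹ (ρ g⁻¹ v - v)) + (ρ h⁻¹ v - v) := by
        rw [mul_inv_rev, map_mul, LinearEquiv.mul_apply, map_sub]; abel
      rw [e]
      exact (C i).add_mem (k4 i _ (h2 i v hv)) (k2 i v hv)
    · rw [map_mul, LinearEquiv.mul_apply]
      exact h3 i _ (k3 i v hv)
    · rw [mul_inv_rev, map_mul, LinearEquiv.mul_apply]
      exact k4 i _ (h4 i v hv)
  one_mem' := by
    refine ⟨fun i v _ => ?_, fun i v _ => ?_, fun i v hv => ?_, fun i v hv => ?_⟩ <;> simp_all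
  inv_mem' := by
    rintro g ⟨h1, h2, h3, h4⟩
    exact ⟨h2, by rwa [inv_inv], h4, by rwa [inv_inv]⟩

/-- membership in `triv` for a finite group: it is enough to look at `g` -/
theorem mem_triv [Finite G] {ρ : G →* (V ≃ₗ[F] V)} {C : ℕ → Submodule F V} (hmono : ∀ i, C i ≤ C (i + 1)) {g : G}
    (h : ∀ i, ∀ v ∈ C (i + 1), ρ g v - v ∈ C i) (h0 : C 0 = ⊥) : g ∈ triv ρ C := by
  have h3 : ∀ i, ∀ v ∈ C i, ρ g v ∈ C i := by
    intro i v hv
    rcases i with _ | i
    · rw [h0, Submodule.mem_bot] at hv ⊢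
      rw [hv, map_zero]
    · have h1 := (C (i + 1)).add_mem (hmono i (h i v hv)) hv
      simpa using h1
  have hpow : ∀ m : ℕ, (∀ i, ∀ v ∈ C i, ρ (g ^ m) v ∈ C i) := by
    intro m
    induction m with
    | zero => intro i v hv; simpa using hv
    | succ m ih =>
      intro i v hv
      rw [pow_succ, map_mul, LinearEquiv.mul_apply]
      exact ih i _ (h3 i v hv)
  obtain ⟨m, -, hm⟩ : ∃ m : ℕ, 0 < m ∧ g⁻¹ = g ^ m := by
    have ho := orderOf_pos g
    refine ⟨2 * orderOf g - 1, by omega, ?_⟩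
    rw [inv_eq_iff_mul_eq_one, ← pow_succ', show 2 * orderOf g - 1 + 1 = orderOf g * 2 by omega, pow_mul,
      pow_orderOf_eq_one, one_pow]
  have h4 : ∀ i, ∀ v ∈ C i, ρ g⁻¹ v ∈ C i := by
    rw [hm]; exact hpow m
  refine ⟨h, fun i v hv => ?_, h3, h4⟩
  have h5 := h4 i _ (h i v hv)
  have e : ρ g⁻¹ (ρ g v - v) = -(ρ g⁻¹ v - v) := by
    rw [map_sub, ← LinearEquiv.mul_apply, ← map_mul, inv_mul_cancel, map_one]
    show v - _ = _
    abel
  rw [e] at h5
  exact (Submodule.neg_mem_iff _).1 h5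

theorem isPGroup_triv {p : ℕ} [Fact p.Prime] [CharP F p] {ρ : G →* (V ≃ₗ[F] V)} (hρ : Function.Injective ρ)
    {C : ℕ → Submodule F V} {n : ℕ} (h0 : C 0 = ⊥) (hn : C n = ⊤) : IsPGroup p (triv ρ C) := by
  rintro ⟨g, hg⟩
  obtain ⟨h1, -, -, -⟩ := hg
  obtain ⟨k, hk⟩ : ∃ k : ℕ, n ≤ p ^ k := ⟨n, (Nat.lt_pow_self (Fact.out : p.Prime).one_lt).le⟩
  refine ⟨k, ?_⟩
  have hg' : g ^ p ^ k = 1 := by
    apply hρ
    rw [map_pow, map_one]
    let N : Module.End F V := ((ρ g : V ≃ₗ[F] V) : V →ₗ[F] V) - 1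
    have hN : ∀ i, ∀ v ∈ C i, (N ^ i) v = 0 := by
      intro i
      induction i with
      | zero =>
        intro v hv
        rw [h0, Submodule.mem_bot] at hv
        rw [hv, map_zero]
      | succ i ih =>
        intro v hv
        rw [pow_succ, Module.End.mul_apply]
        exact ih _ (h1 i v hv)
    have hN' : N ^ n = 0 := by
      ext v
      rw [hN n v (hn ▸ Submodule.mem_top)]
      rfl
    have hNk : N ^ p ^ k = 0 := by
      rw [← Nat.sub_add_cancel hk, pow_add, hN', mul_zero]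
    have : CharP (Module.End F V) p ∨ Subsingleton V := by
      rcases subsingleton_or_nontrivial V with h | h
      · exact Or.inr h
      · left
        exact charP_of_injective_algebraMap (algebraMap F (Module.End F V)).injective p
    rcases this with h | h
    · have e : ((ρ g : V ≃ₗ[F] V) : Module.End F V) = N + 1 := by
        show _ = (((ρ g : V ≃ₗ[F] V) : V →ₗ[F] V) - 1) + 1
        rw [sub_add_cancel]
      have h2 : (((ρ g : V ≃ₗ[F] V) : Module.End F V)) ^ p ^ k = 1 := by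
        rw [e, add_pow_char_pow_of_commute p k (Commute.one_right N), hNk, one_pow, zero_add]
      have h3 : LinearEquiv.automorphismGroup.toLinearMapMonoidHom ((ρ g) ^ p ^ k) = 1 := by
        rw [map_pow]
        exact h2
      ext v
      exact LinearMap.congr_fun h3 v
    · ext v
      exact Subsingleton.elim _ _
  exact Subtype.ext (by simpa using hg')

end nxt

section mech

variable {F V : Type*} [Field F] [AddCommGroup V] [Module F V] {G : Type*} [Group G]

/-- the restriction of the stabiliser of `W` to `W` -/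
def resHom (ρ : G →* (V ≃ₗ[F] V)) (W : Submodule F V) (K : Subgroup G) (hK : ∀ k ∈ K, ∀ v ∈ W, ρ k v ∈ W) :
    K →* (W ≃ₗ[F] W) where
  toFun k :=
    { toFun := fun w => ⟨ρ k w, hK k k.2 w w.2⟩
      map_add' := fun a b => Subtype.ext (by simp)
      map_smul' := fun a b => Subtype.ext (by simp)
      invFun := fun w => ⟨ρ (k : G)⁻¹ w, hK _ (K.inv_mem k.2) w w.2⟩
      left_inv := fun w => Subtype.ext (by
        show ρ (k : G)⁻¹ (ρ k w) = w
        rw [← LinearEquiv.mul_apply, ← map_mul, inv_mul_cancel, map_one]; rfl)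
      right_inv := fun w => Subtype.ext (by
        show ρ (k : G) (ρ (k : G)⁻¹ w) = w
        rw [← LinearEquiv.mul_apply, ← map_mul, mul_inv_cancel, map_one]; rfl) }
  map_one' := by
    ext w
    show ρ (1 : G) w = w
    rw [map_one]; rfl
  map_mul' := fun a b => by
    ext w
    show ρ (a * b : G) w = ρ a (ρ b w)
    rw [map_mul]; rfl

theorem resHom_apply {ρ : G →* (V ≃ₗ[F] V)} {W : Submodule F V} {K : Subgroup G} (hK : ∀ k ∈ K, ∀ v ∈ W, ρ k v ∈ W)
    (k : K) (w : W) : ((resHom ρ W K hK k w : W) : V) = ρ k w := rfl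

theorem map_eq_of_forall [FiniteDimensional F V] (f : V ≃ₗ[F] V) {c c' : Submodule F V}
    (hd : finrank F c = finrank F c') (h : ∀ v ∈ c, f v ∈ c') : c.map (f : V →ₗ[F] V) = c' := by
  apply Submodule.eq_of_le_of_finrank_eq
  · rintro _ ⟨v, hv, rfl⟩
    exact h v hv
  · rw [← hd]
    exact LinearEquiv.finrank_map_eq f c

/-- **The mechanism.** -/
theorem false_of_flag {p : ℕ} [Fact p.Prime] [CharP F p] (hp2 : p ≠ 2) [Finite F] [FiniteDimensional F V] [Finite G]
    (ρ : G →* (V ≃ₗ[F] V)) (P H : Subgroup G) (hPH : ∀ g : G, ∃ a ∈ P, ∃ b ∈ H, g = a * b)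
    (hH : ¬ p ∣ Nat.card H) {c0 L0 W0 : Submodule F V} (hc0 : finrank F c0 = 1) (hL0 : finrank F L0 = 2)
    (hW0 : finrank F W0 = 3) (hcL : c0 ≤ L0) (hLW : L0 ≤ W0)
    (h1 : ∀ a ∈ P, ∀ v ∈ c0, ρ a v ∈ c0) (h2 : ∀ a ∈ P, ∀ v ∈ L0, ρ a v ∈ L0) (h3 : ∀ a ∈ P, ∀ v ∈ W0, ρ a v ∈ W0)
    (htr : ∀ c L : Submodule F V, finrank F c = 1 → finrank F L = 2 → c ≤ L → L ≤ W0 →
      ∃ g : G, (∀ v ∈ W0, ρ g v ∈ W0) ∧ (∀ v ∈ c0, ρ g v ∈ c) ∧ (∀ v ∈ L0, ρ g v ∈ L)) : False := by
  classical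
  let K : Subgroup G :=
    { carrier := {k | k ∈ H ∧ W0.map (ρ k : V →ₗ[F] V) = W0}
      mul_mem' := by
        rintro a b ⟨ha, ha'⟩ ⟨hb, hb'⟩
        refine ⟨H.mul_mem ha hb, ?_⟩
        have e : ((ρ (a * b) : V ≃ₗ[F] V) : V →ₗ[F] V) = ((ρ a : V ≃ₗ[F] V) : V →ₗ[F] V) ∘ₗ (ρ b : V →ₗ[F] V) := by
          rw [map_mul]; rfl
        rw [e, Submodule.map_comp, hb', ha']
      one_mem' := by
        refine ⟨H.one_mem, ?_⟩
        rw [map_one]
        exact Submodule.map_id W0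
      inv_mem' := by
        rintro a ⟨ha, ha'⟩
        refine ⟨H.inv_mem ha, ?_⟩
        conv_lhs => rw [← ha']
        rw [← Submodule.map_comp]
        have e : ((ρ a⁻¹ : V ≃ₗ[F] V) : V →ₗ[F] V) ∘ₗ (ρ a : V →ₗ[F] V) = LinearMap.id := by
          ext v
          show ρ a⁻¹ (ρ a v) = v
          rw [← LinearEquiv.mul_apply, ← map_mul, inv_mul_cancel, map_one]; rfl
        rw [e, Submodule.map_id] }
  have hK : ∀ k ∈ K, ∀ v ∈ W0, ρ k v ∈ W0 := by
    rintro k ⟨-, hk⟩ v hv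
    rw [← hk]
    exact ⟨v, hv, rfl⟩
  have hKH : K ≤ H := fun k hk => hk.1
  let r : K →* (W0 ≃ₗ[F] W0) := resHom ρ W0 K hK
  have hrf : Finite r.range := Finite.of_surjective r.rangeRestrict r.rangeRestrict_surjective
  have hr : ¬ p ∣ Nat.card r.range := by
    intro h
    exact hH ((h.trans (Subgroup.card_range_dvd r)).trans (Subgroup.card_dvd_of_le hKH))
  -- from the base flag
  have key : ∀ c L : Submodule F V, finrank F c = 1 → finrank F L = 2 → c ≤ L → L ≤ W0 →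
      ∃ k ∈ K, (∀ v ∈ c0, ρ k v ∈ c) ∧ (∀ v ∈ L0, ρ k v ∈ L) := by
    intro c L hc hL hcL' hLW'
    obtain ⟨g, hg1, hg2, hg3⟩ := htr c L hc hL hcL' hLW'
    obtain ⟨a, ha, b, hb, hab⟩ := hPH g⁻¹
    have hb' : b⁻¹ = g * a := by
      have h5 : g = (a * b)⁻¹ := by rw [← hab, inv_inv]
      rw [h5]; group
    refine ⟨b⁻¹, ⟨H.inv_mem hb, ?_⟩, fun v hv => ?_, fun v hv => ?_⟩
    · refine map_eq_of_forall _ rfl fun v hv => ?_
      rw [hb', map_mul, LinearEquiv.mul_apply]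
      exact hg1 _ (h3 a ha v hv)
    · rw [hb', map_mul, LinearEquiv.mul_apply]
      exact hg2 _ (h1 a ha v hv)
    · rw [hb', map_mul, LinearEquiv.mul_apply]
      exact hg3 _ (h2 a ha v hv)
  refine no_flag_trans hp2 hW0 r.range hr fun c c' L L' hc hc' hL hL' hcL' hcL'' => ?_
  have hinj : Function.Injective W0.subtype := W0.subtype_injective
  have fr : ∀ X : Submodule F W0, finrank F (X.map W0.subtype) = finrank F X := fun X =>
    (LinearEquiv.finrank_eq (Submodule.equivMapOfInjective _ hinj X)).symm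
  have le3 : ∀ X : Submodule F W0, X.map W0.subtype ≤ W0 := fun X => Submodule.map_subtype_le W0 X
  obtain ⟨k, hk, hk1, hk2⟩ := key (c.map W0.subtype) (L.map W0.subtype) (by rw [fr, hc]) (by rw [fr, hL])
    (Submodule.map_mono hcL') (le3 _)
  obtain ⟨l, hl, hl1, hl2⟩ := key (c'.map W0.subtype) (L'.map W0.subtype) (by rw [fr, hc']) (by rw [fr, hL'])
    (Submodule.map_mono hcL'') (le3 _)
  have e1 : c0.map (ρ k : V →ₗ[F] V) = c.map W0.subtype := map_eq_of_forall _ (by rw [fr, hc, hc0]) hk1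
  have e2 : L0.map (ρ k : V →ₗ[F] V) = L.map W0.subtype := map_eq_of_forall _ (by rw [fr, hL, hL0]) hk2
  have back : ∀ X0 X : Submodule F V, X0.map (ρ k : V →ₗ[F] V) = X → ∀ v ∈ X, ρ k⁻¹ v ∈ X0 := by
    rintro X0 X rfl _ ⟨v, hv, rfl⟩
    have : ρ k⁻¹ ((ρ k : V →ₗ[F] V) v) = v := by
      show ρ k⁻¹ (ρ k v) = v
      rw [← LinearEquiv.mul_apply, ← map_mul, inv_mul_cancel, map_one]; rfl
    rw [this]
    exact hv
  refine ⟨r (⟨l, hl⟩ * ⟨k, hk⟩⁻¹), ⟨_, rfl⟩, ?_, ?_⟩
  · refine map_eq_of_forall _ (by rw [hc, hc']) fun v hv => ?_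
    have h4 : ρ l (ρ k⁻¹ (v : V)) ∈ c'.map W0.subtype :=
      hl1 _ (back _ _ e1 _ ⟨v, hv, rfl⟩)
    obtain ⟨w, hw, hw'⟩ := h4
    have : r (⟨l, hl⟩ * ⟨k, hk⟩⁻¹) v = w := by
      apply Subtype.ext
      rw [resHom_apply]
      show ρ (l * k⁻¹) (v : V) = _
      rw [map_mul, LinearEquiv.mul_apply, ← hw']
      rfl
    rw [this]
    exact hw
  · refine map_eq_of_forall _ (by rw [hL, hL']) fun v hv => ?_
    have h4 : ρ l (ρ k⁻¹ (v : V)) ∈ L'.map W0.subtype :=
      hl2 _ (back _ _ e2 _ ⟨v, hv, rfl⟩)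
    obtain ⟨w, hw, hw'⟩ := h4
    have : r (⟨l, hl⟩ * ⟨k, hk⟩⁻¹) v = w := by
      apply Subtype.ext
      rw [resHom_apply]
      show ρ (l * k⁻¹) (v : V) = _
      rw [map_mul, LinearEquiv.mul_apply, ← hw']
      rfl
    rw [this]
    exact hw

end mech

end Cfsg.Agent.H160.DP
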