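import Cfsg.Agent.H160.DP.Mech

/-!
# The mechanism, second part (helper160)

* `false_of_sylow` : the flag is obtained from a Sylow subgroup normalised by `P`;
* `exists_lift` : passing from a quotient by a central `p'`-subgroup to the group.
-/

set_option autoImplicit false

namespace Cfsg.Agent.H160.DP

open Module Subgroup
open scoped Pointwise

section sylow

variable {F V : Type*} [Field F] [AddCommGroup V] [Module F V] {G : Type*} [Group G]

theorem triv_conj {ρ : G →* (V ≃ₗ[F] V)} {C : ℕ → Submodule F V} {u : G} (hu : ∀ i, ∀ v ∈ C i, ρ u v ∈ C i)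
    (hu' : ∀ i, ∀ v ∈ C i, ρ u⁻¹ v ∈ C i) {g : G} (hg : g ∈ triv ρ C) : u * g * u⁻¹ ∈ triv ρ C := by
  have aux : ∀ g : G, (∀ i, ∀ v ∈ C (i + 1), ρ g v - v ∈ C i) → ∀ i, ∀ v ∈ C (i + 1), ρ (u * g * u⁻¹) v - v ∈ C i := by
    intro g hg i v hv
    have h1 := hu i _ (hg i _ (hu' _ v hv))
    have e : ρ u (ρ g (ρ u⁻¹ v) - ρ u⁻¹ v) = ρ (u * g * u⁻¹) v - v := by
      rw [map_sub, map_mul, map_mul, LinearEquiv.mul_apply, LinearEquiv.mul_apply, ← LinearEquiv.mul_apply (ρ u) (ρ u⁻¹),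
        ← map_mul, mul_inv_cancel, map_one]
      rfl
    rwa [e] at h1
  have aux2 : ∀ g : G, (∀ i, ∀ v ∈ C i, ρ g v ∈ C i) → ∀ i, ∀ v ∈ C i, ρ (u * g * u⁻¹) v ∈ C i := by
    intro g hg i v hv
    rw [map_mul, map_mul, LinearEquiv.mul_apply, LinearEquiv.mul_apply]
    exact hu i _ (hg i _ (hu' i v hv))
  obtain ⟨h1, h2, h3, h4⟩ := hg
  have e : (u * g * u⁻¹)⁻¹ = u * g⁻¹ * u⁻¹ := by group
  refine ⟨aux g h1, ?_, aux2 g h3, ?_⟩
  · rw [e]; exact aux _ h2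
  · rw [e]; exact aux2 _ h4

/-- a `p`-subgroup normalised by a maximal `p`-subgroup is contained in it -/
theorem le_of_max [Finite G] {p : ℕ} [Fact p.Prime] {U Q : Subgroup G} (hU : IsPGroup p U)
    (hmax : ∀ X : Subgroup G, IsPGroup p X → U ≤ X → X = U) (hQ : IsPGroup p Q)
    (hn : ∀ u ∈ U, ∀ g ∈ Q, u * g * u⁻¹ ∈ Q) : Q ≤ U := by
  have h1 : U ≤ normalizer (Q : Set G) := by
    intro u hu
    rw [mem_normalizer_iff]
    intro g
    refine ⟨fun hg => hn u hu g hg, fun hg => ?_⟩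
    have := hn _ (U.inv_mem hu) _ hg
    have e : u⁻¹ * (u * g * u⁻¹) * u⁻¹⁻¹ = g := by group
    rwa [e] at this
  have h2 : IsPGroup p (Q ⊔ U : Subgroup G) := IsPGroup.to_sup_of_normal_left' hQ hU h1
  have h3 := hmax _ h2 le_sup_right
  rw [← h3]
  exact le_sup_left

variable {p : ℕ} [Fact p.Prime] [CharP F p]

/-- the flag is fixed by the normaliser of the Sylow subgroup -/
theorem flag_fixed [Finite G] {ρ : G →* (V ≃ₗ[F] V)} (hρ : Function.Injective ρ)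
    {P U : Subgroup G} (hU : IsPGroup p U) (hmax : ∀ X : Subgroup G, IsPGroup p X → U ≤ X → X = U)
    (hPU : ∀ g ∈ P, ∀ u ∈ U, g * u * g⁻¹ ∈ U)
    {C : ℕ → Submodule F V} {n : ℕ} (h0 : C 0 = ⊥) (hn : C n = ⊤) (hUC : ∀ u ∈ U, ∀ i, ∀ v ∈ C i, ρ u v ∈ C i)
    {c L : Submodule F V} (hc : ∀ a ∈ P, ∀ v ∈ c, ρ a v ∈ c) (hUc : ∀ u ∈ U, ∀ v ∈ c, ρ u v ∈ c)
    (hUL : ∀ u ∈ U, ∀ v ∈ L, ρ u v ∈ L) (h1 : ∃ v0 ∈ L, ∀ v ∈ L, ∃ a : F, v - a • v0 ∈ c)
    (h2 : ∀ v, (∀ g ∈ triv ρ C, ρ g v - v ∈ c) → v ∈ L) : ∀ a ∈ P, ∀ v ∈ L, ρ a v ∈ L := by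
  have hQU : triv ρ C ≤ U :=
    le_of_max hU hmax (isPGroup_triv hρ h0 hn) fun u hu g hg =>
      triv_conj (hUC u hu) (hUC _ (U.inv_mem hu)) hg
  have hL : nxt ρ U c = L := by
    apply le_antisymm
    · intro v hv
      exact h2 v fun g hg => hv g (hQU hg)
    · exact le_nxt hU hUL hUc h1
  intro a ha v hv
  rw [← hL] at hv ⊢
  refine nxt_inv (fun u hu => ?_) (hc a ha) hv
  have := hPU _ (P.inv_mem ha) u hu
  rwa [inv_inv] at this

theorem exists_gen {c L : Submodule F V} [FiniteDimensional F V] (hcL : c ≤ L) (h : finrank F L = finrank F c + 1) :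
    ∃ v0 ∈ L, ∀ v ∈ L, ∃ a : F, v - a • v0 ∈ c := by
  obtain ⟨v0, hv0, hv0c⟩ : ∃ v0 ∈ L, v0 ∉ c := by
    by_contra hcon
    push Not at hcon
    have h1 : finrank F L ≤ finrank F c := Submodule.finrank_mono fun v hv => hcon v hv
    omega
  refine ⟨v0, hv0, fun v hv => ?_⟩
  have h2 : c ⊔ F ∙ v0 = L := by
    apply Submodule.eq_of_le_of_finrank_le (sup_le hcL (by simpa using hv0))
    have h3 : c < c ⊔ F ∙ v0 := by
      refine lt_of_le_of_ne le_sup_left fun heq => hv0c ?_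
      rw [heq]
      exact le_sup_right (a := c) (Submodule.mem_span_singleton_self v0)
    have h4 := Submodule.finrank_lt_finrank_of_lt h3
    omega
  rw [← h2, Submodule.mem_sup] at hv
  obtain ⟨x, hx, y, hy, rfl⟩ := hv
  obtain ⟨a, rfl⟩ := Submodule.mem_span_singleton.1 hy
  exact ⟨a, by simpa using hx⟩

/-- **The mechanism, from the Sylow subgroup.** -/
theorem false_of_sylow (hp2 : p ≠ 2) [Finite F] [FiniteDimensional F V] [Finite G]
    {ρ : G →* (V ≃ₗ[F] V)} (hρ : Function.Injective ρ) (P H : Subgroup G)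
    (hPH : ∀ g : G, ∃ a ∈ P, ∃ b ∈ H, g = a * b) (hH : ¬ p ∣ Nat.card H)
    {U : Subgroup G} (hU : IsPGroup p U) (hmax : ∀ X : Subgroup G, IsPGroup p X → U ≤ X → X = U)
    (hPU : ∀ g ∈ P, ∀ u ∈ U, g * u * g⁻¹ ∈ U)
    {c0 L0 W0 : Submodule F V} (hc0 : finrank F c0 = 1) (hL0 : finrank F L0 = 2)
    (hW0 : finrank F W0 = 3) (hcL : c0 ≤ L0) (hLW : L0 ≤ W0)
    (hUc : ∀ u ∈ U, ∀ v ∈ c0, ρ u v ∈ c0) (hUL : ∀ u ∈ U, ∀ v ∈ L0, ρ u v ∈ L0) (hUW : ∀ u ∈ U, ∀ v ∈ W0, ρ u v ∈ W0)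
    {C : ℕ → Submodule F V} {n : ℕ} (h0 : C 0 = ⊥) (hn : C n = ⊤) (hUC : ∀ u ∈ U, ∀ i, ∀ v ∈ C i, ρ u v ∈ C i)
    (q1 : ∀ v, (∀ g ∈ triv ρ C, ρ g v = v) → v ∈ c0)
    (q2 : ∀ v, (∀ g ∈ triv ρ C, ρ g v - v ∈ c0) → v ∈ L0)
    (q3 : ∀ v, (∀ g ∈ triv ρ C, ρ g v - v ∈ L0) → v ∈ W0)
    (htr : ∀ c L : Submodule F V, finrank F c = 1 → finrank F L = 2 → c ≤ L → L ≤ W0 →
      ∃ g : G, (∀ v ∈ W0, ρ g v ∈ W0) ∧ (∀ v ∈ c0, ρ g v ∈ c) ∧ (∀ v ∈ L0, ρ g v ∈ L)) : False := by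
  have hb : ∀ a : G, ∀ v ∈ (⊥ : Submodule F V), ρ a v ∈ (⊥ : Submodule F V) := by
    intro a v hv
    rw [Submodule.mem_bot] at hv ⊢
    rw [hv, map_zero]
  have f1 : ∀ a ∈ P, ∀ v ∈ c0, ρ a v ∈ c0 := by
    refine flag_fixed hρ hU hmax hPU h0 hn hUC (c := ⊥) (fun a _ => hb a) (fun u _ => hb u) hUc
      (exists_gen bot_le (by rw [hc0, finrank_bot])) fun v hv => q1 v fun g hg => ?_
    have := hv g hg
    rwa [Submodule.mem_bot, sub_eq_zero] at this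
  have f2 : ∀ a ∈ P, ∀ v ∈ L0, ρ a v ∈ L0 :=
    flag_fixed hρ hU hmax hPU h0 hn hUC f1 hUc hUL (exists_gen hcL (by rw [hc0, hL0])) q2
  have f3 : ∀ a ∈ P, ∀ v ∈ W0, ρ a v ∈ W0 :=
    flag_fixed hρ hU hmax hPU h0 hn hUC f2 hUL hUW (exists_gen hLW (by rw [hL0, hW0])) q3
  exact false_of_flag hp2 ρ P H hPH hH hc0 hL0 hW0 hcL hLW f1 f2 f3 htr

end sylow

section lift

variable {K S : Type*} [Group K] [Group S] [Finite K] {p : ℕ} [Fact p.Prime]

/-- **Lifting a factorization through a central `p'`-extension.** -/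
theorem exists_lift (f : K →* S) (hf : Function.Surjective f) (hker : ∀ z, f z = 1 → ∀ x, z * x = x * z)
    (hkp : ¬ p ∣ Nat.card f.ker) {P H : Subgroup S} (hPH : ∀ g : S, ∃ a ∈ P, ∃ b ∈ H, g = a * b)
    (hH : ¬ p ∣ Nat.card H) (T : Sylow p S) (hT : P ≤ normalizer ((T : Subgroup S) : Set S)) :
    ∃ (P' H' : Subgroup K) (U : Sylow p K), (∀ g : K, ∃ a ∈ P', ∃ b ∈ H', g = a * b) ∧ ¬ p ∣ Nat.card H' ∧
      (∀ g ∈ P', ∀ u ∈ (U : Subgroup K), g * u * g⁻¹ ∈ (U : Subgroup K)) ∧ P' = P.comap f ∧ H' = H.comap f ∧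
      (U : Subgroup K).map f = T := by
  classical
  have : Finite S := Finite.of_surjective f hf
  refine ⟨P.comap f, H.comap f, ?_⟩
  have h1 : ∀ g : K, ∃ a ∈ P.comap f, ∃ b ∈ H.comap f, g = a * b := by
    intro g
    obtain ⟨a, ha, b, hb, hab⟩ := hPH (f g)
    obtain ⟨a', rfl⟩ := hf a
    refine ⟨a', ha, a'⁻¹ * g, ?_, by group⟩
    rw [mem_comap, map_mul, map_inv, hab]
    simpa using hb
  have h2 : ¬ p ∣ Nat.card (H.comap f) := by
    intro h
    have e : Nat.card (H.comap f) = Nat.card f.ker * Nat.card H := by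
      let g : H.comap f →* H := f.subgroupComap H
      have hg : Function.Surjective g := f.subgroupComap_surjective_of_surjective H hf
      have e1 : Nat.card (H.comap f) = Nat.card (H.comap f ⧸ g.ker) * Nat.card g.ker :=
        Subgroup.card_eq_card_quotient_mul_card_subgroup _
      have e2 : Nat.card (H.comap f ⧸ g.ker) = Nat.card H :=
        Nat.card_congr (QuotientGroup.quotientKerEquivOfSurjective g hg).toEquiv
      have e3 : Nat.card g.ker = Nat.card f.ker := by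
        refine Nat.card_congr
          { toFun := fun x => ⟨x.1.1, ?_⟩
            invFun := fun x => ⟨⟨x.1, ?_⟩, ?_⟩
            left_inv := fun x => rfl
            right_inv := fun x => rfl }
        · have := x.2
          rw [MonoidHom.mem_ker] at this ⊢
          exact congrArg Subtype.val this
        · rw [mem_comap, MonoidHom.mem_ker.1 x.2]; exact H.one_mem
        · rw [MonoidHom.mem_ker]
          exact Subtype.ext (MonoidHom.mem_ker.1 x.2)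
      rw [e1, e2, e3, mul_comm]
    rw [e] at h
    rcases (Fact.out : p.Prime).dvd_mul.1 h with h | h
    · exact hkp h
    · exact hH h
  -- a Sylow subgroup over `T`
  obtain ⟨U0⟩ : Nonempty (Sylow p K) := inferInstance
  obtain ⟨s, hs⟩ := MulAction.exists_smul_eq S (U0.mapSurjective hf) T
  obtain ⟨k, rfl⟩ := hf s
  have hU : ((k • U0 : Sylow p K) : Subgroup K).map f = T := by
    rw [← hs]
    ext x
    simp only [Sylow.coe_subgroup_smul, Sylow.coe_mapSurjective]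
    constructor
    · rintro ⟨y, ⟨z, hz, rfl⟩, rfl⟩
      refine ⟨f z, ⟨z, hz, rfl⟩, ?_⟩
      simp
    · rintro ⟨y, ⟨z, hz, rfl⟩, rfl⟩
      refine ⟨k * z * k⁻¹, ⟨z, hz, rfl⟩, ?_⟩
      simp
  refine ⟨k • U0, h1, h2, ?_, rfl, rfl, hU⟩
  intro g hg u hu
  have hTT : f (g * u * g⁻¹) ∈ (T : Subgroup S) := by
    rw [map_mul, map_mul, map_inv]
    have := hT hg
    rw [mem_normalizer_iff] at this
    refine (this _).1 ?_
    rw [← hU]
    exact ⟨u, hu, rfl⟩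
  rw [← hU] at hTT
  obtain ⟨w, hw, hw'⟩ := hTT
  let z : K := w⁻¹ * (g * u * g⁻¹)
  have hz : f z = 1 := by
    show f (w⁻¹ * (g * u * g⁻¹)) = 1
    rw [map_mul, map_inv, ← hw']; group
  have hgz : g * u * g⁻¹ = w * z := by
    show _ = w * (w⁻¹ * (g * u * g⁻¹))
    group
  obtain ⟨a, ha⟩ := (k • U0 : Sylow p K).isPGroup' ⟨u, hu⟩
  obtain ⟨b, hb⟩ := (k • U0 : Sylow p K).isPGroup' ⟨w, hw⟩
  have ha' : u ^ p ^ a = 1 := by simpa using congrArg Subtype.val ha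
  have hb' : w ^ p ^ b = 1 := by simpa using congrArg Subtype.val hb
  have hzc : Commute w z := (hker z hz w).symm
  have h3 : z ^ p ^ (a + b) = 1 := by
    have h4 : (g * u * g⁻¹) ^ p ^ (a + b) = 1 := by
      rw [conj_pow, pow_add, pow_mul, ha', one_pow]; group
    rw [hgz, hzc.mul_pow, show w ^ p ^ (a + b) = 1 by rw [pow_add, mul_comm, pow_mul, hb', one_pow], one_mul] at h4
    exact h4
  have h5 : z = 1 := by
    have h6 : orderOf z ∣ p ^ (a + b) := orderOf_dvd_of_pow_eq_one h3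
    obtain ⟨m, -, hm⟩ := (Nat.dvd_prime_pow (Fact.out : p.Prime)).1 h6
    have h7 : orderOf z ∣ Nat.card f.ker := by
      have : orderOf (⟨z, MonoidHom.mem_ker.2 hz⟩ : f.ker) ∣ Nat.card f.ker := orderOf_dvd_natCard _
      rwa [← Subgroup.orderOf_coe] at this
    rcases m with _ | m
    · rw [pow_zero] at hm
      exact orderOf_eq_one_iff.1 hm
    · exfalso
      apply hkp
      refine Dvd.dvd.trans ?_ h7
      rw [hm, pow_succ]
      exact Dvd.intro_left _ rfl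
  rw [hgz, h5, mul_one]
  exact hw

end lift

end Cfsg.Agent.H160.DP
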