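import Cfsg.Agent.H160.DP.Tv

/-!
# `PSL_n(q)`, `n ≥ 3`, `q` odd: no exact factorization with a `p'`-factor (helper160)
-/

set_option autoImplicit false

namespace Cfsg.Agent.H160.DP

open Module Subgroup Matrix
open scoped Pointwise

variable {F : Type*} [Field F] {n : ℕ}

/-- the natural module -/
noncomputable def rhoSL (n : ℕ) (F : Type*) [Field F] :
    Matrix.SpecialLinearGroup (Fin n) F →* ((Fin n → F) ≃ₗ[F] (Fin n → F)) := Matrix.SpecialLinearGroup.toLin'

theorem rhoSL_apply (A : Matrix.SpecialLinearGroup (Fin n) F) (v : Fin n → F) : rhoSL n F A v = A.1 *ᵥ v := rfl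

theorem rhoSL_injective : Function.Injective (rhoSL n F) := Matrix.SpecialLinearGroup.toLin'_injective

/-- transvections -/
theorem exists_transv (φ : (Fin n → F) →ₗ[F] F) (x : Fin n → F) (h : φ x = 0) :
    ∃ g : Matrix.SpecialLinearGroup (Fin n) F, ∀ v, rhoSL n F g v = v + φ v • x := by
  have hd : (LinearMap.toMatrix' (LinearMap.transvection φ x)).det = 1 := by
    rw [LinearMap.det_toMatrix', LinearMap.transvection.det, h, add_zero]
  refine ⟨(⟨LinearMap.toMatrix' (LinearMap.transvection φ x), hd⟩ : Matrix.SpecialLinearGroup (Fin n) F),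
    fun v => ?_⟩
  change LinearMap.toMatrix' (LinearMap.transvection φ x) *ᵥ v = _
  rw [LinearMap.toMatrix'_mulVec, LinearMap.transvection.apply]

theorem psl_no_exact [Fintype F] {p : ℕ} [Fact p.Prime] [CharP F p] (hp2 : p ≠ 2) (hn : 3 ≤ n)
    (P H : Subgroup (Matrix.ProjectiveSpecialLinearGroup (Fin n) F)) (hPH : ∀ g, ∃ a ∈ P, ∃ b ∈ H, g = a * b)
    (T : Sylow p (Matrix.ProjectiveSpecialLinearGroup (Fin n) F))
    (hT : P ≤ normalizer ((T : Subgroup (Matrix.ProjectiveSpecialLinearGroup (Fin n) F)) : Set _))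
    (hH : ¬ p ∣ Nat.card H) : False := by
  classical
  -- the kernel
  let f : Matrix.SpecialLinearGroup (Fin n) F →* Matrix.ProjectiveSpecialLinearGroup (Fin n) F :=
    QuotientGroup.mk' (Subgroup.center (Matrix.SpecialLinearGroup (Fin n) F))
  have hf : Function.Surjective f := QuotientGroup.mk'_surjective _
  have hfk : f.ker = Subgroup.center (Matrix.SpecialLinearGroup (Fin n) F) := QuotientGroup.ker_mk' _
  have hker : ∀ z, f z = 1 → ∀ x, z * x = x * z := by
    intro z hz x
    have : z ∈ f.ker := hz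
    rw [hfk] at this
    exact (Subgroup.mem_center_iff.1 this x).symm
  have hkp : ¬ p ∣ Nat.card f.ker := by
    rw [hfk]
    intro hd
    obtain ⟨z, hz⟩ := exists_prime_orderOf_dvd_card' p hd
    have hzc := z.2
    obtain ⟨r, hr, hr'⟩ := (Matrix.SpecialLinearGroup.mem_center_iff).1 hzc
    have hzp : (z : Matrix.SpecialLinearGroup (Fin n) F) ^ p = 1 := by
      have : z ^ p = 1 := by rw [← hz]; exact pow_orderOf_eq_one z
      simpa using congrArg Subtype.val this
    have hi : Nonempty (Fin n) := ⟨⟨0, by omega⟩⟩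
    have hrp : r ^ p = 1 := by
      have h1 : ((z : Matrix.SpecialLinearGroup (Fin n) F) : Matrix (Fin n) (Fin n) F) ^ p = 1 := by
        have := congrArg (fun x : Matrix.SpecialLinearGroup (Fin n) F => (x : Matrix (Fin n) (Fin n) F)) hzp
        simpa using this
      rw [← hr', ← map_pow] at h1
      obtain ⟨i⟩ := hi
      have h2 := congrFun (congrFun h1 i) i
      simpa using h2
    have h3 : (r - 1) ^ p = 0 := by
      rw [sub_pow_char, hrp, one_pow, sub_self]
    have h4 : r = 1 := sub_eq_zero.1 (pow_eq_zero_iff (Fact.out : p.Prime).ne_zero |>.1 h3)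
    have h5 : z = 1 := by
      apply Subtype.ext
      apply Subtype.ext
      rw [← hr', h4, map_one]
      rfl
    rw [h5, orderOf_one] at hz
    exact (Fact.out : p.Prime).one_lt.ne hz
  obtain ⟨P', H', U, h1, h2, h3, -, -, -⟩ := exists_lift f hf hker hkp hPH hH T hT
  have hU : IsPGroup p (U : Subgroup (Matrix.SpecialLinearGroup (Fin n) F)) := U.isPGroup'
  have hmax : ∀ X : Subgroup (Matrix.SpecialLinearGroup (Fin n) F), IsPGroup p X → (U : Subgroup _) ≤ X → X = U :=
    fun X hX hUX => U.is_maximal' hX hUX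
  have hdim : finrank F (Fin n → F) = n := by rw [finrank_fin_fun]
  have hbot : ∀ u ∈ (U : Subgroup (Matrix.SpecialLinearGroup (Fin n) F)), ∀ v ∈ (⊥ : Submodule F (Fin n → F)),
      rhoSL n F u v ∈ (⊥ : Submodule F (Fin n → F)) := by
    intro u _ v hv
    rw [Submodule.mem_bot] at hv ⊢
    rw [hv, map_zero]
  have htop : ∀ u ∈ (U : Subgroup (Matrix.SpecialLinearGroup (Fin n) F)), ∀ v ∈ (⊤ : Submodule F (Fin n → F)),
      rhoSL n F u v ∈ (⊤ : Submodule F (Fin n → F)) := fun _ _ _ _ => Submodule.mem_top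
  have hlt : ∀ c : Submodule F (Fin n → F), finrank F c < n → c < ⊤ := by
    intro c hc
    rw [lt_top_iff_ne_top]
    rintro rfl
    rw [finrank_top, hdim] at hc
    exact lt_irrefl _ hc
  obtain ⟨c0, -, -, hc0, hUc⟩ := exists_succ (ρ := rhoSL n F) hU (hlt ⊥ (by rw [finrank_bot]; omega)) hbot htop
  rw [finrank_bot] at hc0
  obtain ⟨L0, hcL, -, hL0, hUL⟩ := exists_succ (ρ := rhoSL n F) hU (hlt c0 (by omega)) hUc htop
  obtain ⟨W0, hLW, -, hW0, hUW⟩ := exists_succ (ρ := rhoSL n F) hU (hlt L0 (by omega)) hUL htop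
  rw [hc0] at hL0
  rw [hL0] at hW0
  let C : ℕ → Submodule F (Fin n → F) := fun i =>
    match i with
    | 0 => ⊥
    | 1 => c0
    | 2 => L0
    | 3 => W0
    | _ => ⊤
  have hmono : ∀ i, C i ≤ C (i + 1) := by
    intro i
    match i with
    | 0 => exact bot_le
    | 1 => exact hcL
    | 2 => exact hLW
    | 3 => exact le_top
    | (k + 4) => exact le_top
  have hUC : ∀ u ∈ (U : Subgroup (Matrix.SpecialLinearGroup (Fin n) F)), ∀ i, ∀ v ∈ C i, rhoSL n F u v ∈ C i := by
    intro u hu i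
    match i with
    | 0 => exact hbot u hu
    | 1 => exact hUc u hu
    | 2 => exact hUL u hu
    | 3 => exact hUW u hu
    | (k + 4) => exact htop u hu
  -- transvections in `triv`
  have htv : ∀ (φ : (Fin n → F) →ₗ[F] F) (x : Fin n → F) (g : Matrix.SpecialLinearGroup (Fin n) F) (k : ℕ),
      (∀ v, rhoSL n F g v = v + φ v • x) → x ∈ C k → (∀ w ∈ C k, φ w = 0) → g ∈ triv (rhoSL n F) C := by
    intro φ x g k hg hx hφ
    refine mem_triv hmono (fun i v hv => ?_) rfl
    rw [hg, add_sub_cancel_left]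
    rcases Nat.lt_or_ge i k with h | h
    · have h5 : C (i + 1) ≤ C k := monotone_nat_of_le_succ hmono h
      rw [hφ v (h5 hv), zero_smul]
      exact (C i).zero_mem
    · exact (C i).smul_mem _ (monotone_nat_of_le_succ hmono h hx)
  have gen : ∀ (k : ℕ) (c L : Submodule F (Fin n → F)), C (k + 1) = L → C k = c → finrank F c < finrank F L →
      ∀ v, (∀ g ∈ triv (rhoSL n F) C, rhoSL n F g v - v ∈ c) → v ∈ L := by
    rintro k _ _ rfl rfl hlt v hv
    by_contra hvL
    obtain ⟨φ, hφ, hφ'⟩ := exists_fun hvL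
    obtain ⟨x, hx, hxc⟩ : ∃ x ∈ C (k + 1), x ∉ C k := by
      by_contra hcon
      push Not at hcon
      have := Submodule.finrank_mono (R := F) fun v hv => hcon v hv
      omega
    obtain ⟨g, hg⟩ := exists_transv φ x (hφ' x hx)
    have h6 := hv g (htv φ x g (k + 1) hg hx hφ')
    rw [hg, hφ, one_smul, add_sub_cancel_left] at h6
    exact hxc h6
  refine false_of_sylow hp2 (ρ := rhoSL n F) rhoSL_injective P' H' h1 h2 hU hmax h3 hc0 hL0 hW0 hcL hLW hUc hUL hUW
    (C := C) (n := 4) rfl rfl hUC ?_ ?_ ?_ ?_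
  · intro v hv
    refine gen 0 ⊥ c0 rfl rfl (by rw [finrank_bot, hc0]; omega) v fun g hg => ?_
    rw [hv g hg, sub_self]
    exact Submodule.zero_mem _
  · exact gen 1 c0 L0 rfl rfl (by omega)
  · exact gen 2 L0 W0 rfl rfl (by omega)
  · exact htr_of_transvections (rhoSL n F) hc0 hL0 hcL hLW fun φ x _ hφ => by
      obtain ⟨g, hg⟩ := exists_transv φ x hφ
      exact ⟨g, fun v _ => hg v⟩

end Cfsg.Agent.H160.DP
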