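import Cfsg.Agent.H160.DP.MechB

/-!
# Tools for the families (helper160)

* `exists_fun` : a linear form with value 1 at `v` vanishing on `c`;
* `htr_of_transvections` : transitivity on the flags of `W0` from the transvections of `W0`;
* `exists_succ` : a `p`-group acting in characteristic `p` fixes a submodule of dimension one more between two invariant
  submodules.
-/

set_option autoImplicit false

namespace Cfsg.Agent.H160.DP

open Module Subgroup
open scoped Pointwise

variable {F V : Type*} [Field F] [AddCommGroup V] [Module F V] {G : Type*} [Group G]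

theorem exists_fun {c : Submodule F V} {v : V} (hv : v ∉ c) : ∃ φ : V →ₗ[F] F, φ v = 1 ∧ ∀ w ∈ c, φ w = 0 := by
  obtain ⟨f, hf, hf'⟩ := Submodule.exists_le_ker_of_notMem hv
  refine ⟨(f v)⁻¹ • f, ?_, fun w hw => ?_⟩
  · rw [LinearMap.smul_apply, smul_eq_mul, inv_mul_cancel₀ hf]
  · rw [LinearMap.smul_apply, hf' hw, smul_zero]

/-- transitivity on flags from transvections -/
theorem htr_of_transvections [FiniteDimensional F V] (ρ : G →* (V ≃ₗ[F] V)) {c0 L0 W0 : Submodule F V}
    (hc0 : finrank F c0 = 1) (hL0 : finrank F L0 = 2) (hcL : c0 ≤ L0) (hLW : L0 ≤ W0)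
    (htv : ∀ (φ : V →ₗ[F] F) (x : V), x ∈ W0 → φ x = 0 → ∃ g : G, ∀ v ∈ W0, ρ g v = v + φ v • x)
    (c L : Submodule F V) (hc : finrank F c = 1) (hL : finrank F L = 2) (hcL' : c ≤ L) (hLW' : L ≤ W0) :
    ∃ g : G, (∀ v ∈ W0, ρ g v ∈ W0) ∧ (∀ v ∈ c0, ρ g v ∈ c) ∧ (∀ v ∈ L0, ρ g v ∈ L) := by
  obtain ⟨a0, ha0, ha0', ha0c⟩ := finrank_eq_one_iff'.1 hc0 |> fun ⟨v, h, h'⟩ => (⟨v.1, v.2, fun h0 => h (Subtype.ext h0), fun w hw => by
    obtain ⟨t, ht⟩ := h' ⟨w, hw⟩
    exact ⟨t, congrArg Subtype.val ht⟩⟩ : ∃ v : V, v ∈ c0 ∧ v ≠ 0 ∧ ∀ w ∈ c0, ∃ t : F, t • v = w)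
  obtain ⟨a, ha, ha', hac⟩ := finrank_eq_one_iff'.1 hc |> fun ⟨v, h, h'⟩ => (⟨v.1, v.2, fun h0 => h (Subtype.ext h0), fun w hw => by
    obtain ⟨t, ht⟩ := h' ⟨w, hw⟩
    exact ⟨t, congrArg Subtype.val ht⟩⟩ : ∃ v : V, v ∈ c ∧ v ≠ 0 ∧ ∀ w ∈ c, ∃ t : F, t • v = w)
  obtain ⟨b0, hb0, hb0s⟩ := exists_gen hcL (by rw [hc0, hL0])
  obtain ⟨b, hb, hbs⟩ := exists_gen hcL' (by rw [hc, hL])
  have haW : a ∈ W0 := hLW' (hcL' ha)
  have ha0W : a0 ∈ W0 := hLW (hcL ha0)
  -- transitive on nonzero vectors, independent case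
  have st1 : ∀ x y : V, x ∈ W0 → y ∈ W0 → x ≠ 0 → (∀ t : F, y ≠ t • x) → ∃ g : G, (∀ v ∈ W0, ρ g v ∈ W0) ∧ ρ g x = y := by
    intro x y hx hy hx0 hxy
    have h1 : x ∉ F ∙ (y - x) := by
      intro h
      obtain ⟨t, ht⟩ := Submodule.mem_span_singleton.1 h
      rcases eq_or_ne t 0 with rfl | ht0
      · rw [zero_smul] at ht; exact hx0 ht.symm
      · apply hxy (t⁻¹ + 1)
        have : y - x = t⁻¹ • x := by
          rw [← ht, smul_smul, inv_mul_cancel₀ ht0, one_smul, ht]
        rw [add_smul, one_smul, ← this]; abel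
    obtain ⟨φ, hφ, hφ'⟩ := exists_fun h1
    obtain ⟨g, hg⟩ := htv φ (y - x) (W0.sub_mem hy hx) (hφ' _ (Submodule.mem_span_singleton_self _))
    refine ⟨g, fun v hv => ?_, ?_⟩
    · rw [hg v hv]
      exact W0.add_mem hv (W0.smul_mem _ (W0.sub_mem hy hx))
    · rw [hg x hx, hφ, one_smul]; abel
  -- transitive on nonzero vectors
  have st2 : ∃ g : G, (∀ v ∈ W0, ρ g v ∈ W0) ∧ ρ g a0 = a := by
    by_cases h : ∀ t : F, a ≠ t • a0
    · exact st1 a0 a ha0W haW ha0' h
    · push Not at h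
      obtain ⟨t, ht⟩ := h
      have ht0 : t ≠ 0 := by
        rintro rfl
        rw [zero_smul] at ht
        exact ha' ht
      -- a vector outside
      obtain ⟨e, he, hec⟩ : ∃ e ∈ L0, e ∉ c0 := by
        by_contra hcon
        push Not at hcon
        have h1 : finrank F L0 ≤ finrank F c0 := Submodule.finrank_mono fun v hv => hcon v hv
        omega
      have h1 : ∀ s : F, e ≠ s • a0 := by
        rintro s rfl
        exact hec (c0.smul_mem s ha0)
      have he0 : e ≠ 0 := by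
        rintro rfl
        exact hec c0.zero_mem
      have h2 : ∀ s : F, a ≠ s • e := by
        intro s hs
        rcases eq_or_ne s 0 with rfl | hs0
        · rw [zero_smul] at hs; exact ha' hs
        · apply h1 (s⁻¹ * t)
          rw [mul_smul, ← ht, hs, smul_smul, inv_mul_cancel₀ hs0, one_smul]
      obtain ⟨g1, hg1, hg1'⟩ := st1 a0 e ha0W (hLW he) ha0' h1
      obtain ⟨g2, hg2, hg2'⟩ := st1 e a (hLW he) haW he0 h2
      refine ⟨g2 * g1, fun v hv => ?_, ?_⟩
      · rw [map_mul, LinearEquiv.mul_apply]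
        exact hg2 _ (hg1 v hv)
      · rw [map_mul, LinearEquiv.mul_apply, hg1', hg2']
  obtain ⟨g1, hg1, hg1'⟩ := st2
  -- second step
  have hbc : b ∉ c := by
    intro h
    have h1 : L ≤ c := by
      intro v hv
      obtain ⟨t, ht⟩ := hbs v hv
      have := c.add_mem ht (c.smul_mem t h)
      simpa using this
    have h2 := Submodule.finrank_mono h1
    omega
  have hb0c : b0 ∉ c0 := by
    intro h
    have h1 : L0 ≤ c0 := by
      intro v hv
      obtain ⟨t, ht⟩ := hb0s v hv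
      have := c0.add_mem ht (c0.smul_mem t h)
      simpa using this
    have h2 := Submodule.finrank_mono h1
    omega
  have hb1 : ρ g1 b0 ∉ c := by
    intro h
    obtain ⟨t, ht⟩ := hac _ h
    apply hb0c
    have h3 : ρ g1 (t • a0) = ρ g1 b0 := by
      rw [map_smul, hg1', ht]
    rw [← (ρ g1).injective h3]
    exact c0.smul_mem t ha0
  have hb1W : ρ g1 b0 ∈ W0 := hg1 _ (hLW hb0)
  obtain ⟨g2, hg2, hg2a, hg2b⟩ : ∃ g : G, (∀ v ∈ W0, ρ g v ∈ W0) ∧ ρ g a = a ∧ ρ g (ρ g1 b0) ∈ L := by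
    by_cases h : ρ g1 b0 ∈ L
    · exact ⟨1, fun v hv => by simpa using hv, by simp, by simpa using h⟩
    · have h1 : ρ g1 b0 ∉ c ⊔ F ∙ (b - ρ g1 b0) := by
        intro hm
        obtain ⟨y, hy, z, hz, hyz⟩ := Submodule.mem_sup.1 hm
        obtain ⟨t, rfl⟩ := Submodule.mem_span_singleton.1 hz
        -- y + t (b - b1) = b1
        have h2 : (1 + t) • ρ g1 b0 = y + t • b := by
          rw [add_smul, one_smul]
          nth_rewrite 1 [← hyz]
          rw [smul_sub]
          abel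
        rcases eq_or_ne (1 + t) 0 with h0 | h0
        · rw [h0, zero_smul] at h2
          have h3 : t = -1 := by linear_combination h0
          rw [h3, neg_one_smul] at h2
          apply hbc
          have : b = y := by
            rw [eq_comm, ← sub_eq_zero, sub_eq_add_neg]
            exact h2.symm
          rw [this]; exact hy
        · apply h
          have h3 : ρ g1 b0 = (1 + t)⁻¹ • (y + t • b) := by
            rw [← h2, smul_smul, inv_mul_cancel₀ h0, one_smul]
          rw [h3]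
          exact L.smul_mem _ (L.add_mem (hcL' hy) (L.smul_mem _ hb))
      obtain ⟨φ, hφ, hφ'⟩ := exists_fun h1
      obtain ⟨g, hg⟩ := htv φ (b - ρ g1 b0) (W0.sub_mem (hLW' hb) hb1W)
        (hφ' _ (le_sup_right (a := c) (Submodule.mem_span_singleton_self _)))
      refine ⟨g, fun v hv => ?_, ?_, ?_⟩
      · rw [hg v hv]
        exact W0.add_mem hv (W0.smul_mem _ (W0.sub_mem (hLW' hb) hb1W))
      · rw [hg a haW, hφ' a (le_sup_left (a := c) ha), zero_smul, add_zero]
      · rw [hg _ hb1W, hφ, one_smul]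
        simpa using hb
  refine ⟨g2 * g1, fun v hv => ?_, fun v hv => ?_, fun v hv => ?_⟩
  · rw [map_mul, LinearEquiv.mul_apply]
    exact hg2 _ (hg1 v hv)
  · obtain ⟨t, rfl⟩ := ha0c v hv
    rw [map_mul, LinearEquiv.mul_apply, map_smul, hg1', map_smul, hg2a]
    exact c.smul_mem t ha
  · obtain ⟨s, hs⟩ := hb0s v hv
    obtain ⟨t, ht⟩ := ha0c _ hs
    have hv' : v = t • a0 + s • b0 := by rw [ht]; abel
    rw [hv', map_mul, LinearEquiv.mul_apply, map_add, map_smul, map_smul, hg1', map_add, map_smul, map_smul, hg2a]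
    exact L.add_mem (L.smul_mem _ (hcL' ha)) (L.smul_mem _ hg2b)

/-- a `p`-group has a fixed vector modulo `c` inside `M` -/
theorem exists_fix {p : ℕ} [Fact p.Prime] [CharP F p] [Finite F] [FiniteDimensional F V] {ρ : G →* (V ≃ₗ[F] V)}
    {U : Subgroup G} (hU : IsPGroup p U) {c M : Submodule F V} (hcM : c < M)
    (hc : ∀ u ∈ U, ∀ v ∈ c, ρ u v ∈ c) (hM : ∀ u ∈ U, ∀ v ∈ M, ρ u v ∈ M) :
    ∃ v ∈ M, v ∉ c ∧ ∀ u ∈ U, ρ u v - v ∈ c := by
  classical
  let c' : Submodule F M := c.submoduleOf M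
  let act : U → (M →ₗ[F] M) := fun u => (ρ u : V →ₗ[F] V).restrict (hM u u.2)
  have hact : ∀ u : U, c' ≤ c'.comap (act u) := by
    intro u x hx
    exact hc u u.2 x hx
  let inst : MulAction U (M ⧸ c') :=
    { smul := fun u x => c'.mapQ c' (act u) (hact u) x
      one_smul := by
        intro x
        obtain ⟨x, rfl⟩ := c'.mkQ_surjective x
        show c'.mapQ c' (act 1) (hact 1) (c'.mkQ x) = _
        rw [Submodule.mkQ_apply, Submodule.mapQ_apply]
        congr 1
        apply Subtype.ext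
        show ρ (1 : G) (x : V) = x
        rw [map_one]; rfl
      mul_smul := by
        intro u w x
        obtain ⟨x, rfl⟩ := c'.mkQ_surjective x
        show c'.mapQ c' (act (u * w)) (hact _) (c'.mkQ x) = c'.mapQ c' (act u) (hact _) (c'.mapQ c' (act w) (hact _) (c'.mkQ x))
        rw [Submodule.mkQ_apply, Submodule.mapQ_apply, Submodule.mapQ_apply, Submodule.mapQ_apply]
        congr 1
        apply Subtype.ext
        show ρ ((u * w : U) : G) (x : V) = ρ u (ρ w x)
        rw [Subgroup.coe_mul, map_mul]; rfl }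
  have hVfin : Finite V := Module.finite_of_finite F
  have hfin : Finite (M ⧸ c') := Finite.of_surjective _ c'.mkQ_surjective
  have hne : Nontrivial (M ⧸ c') := by
    rw [Submodule.Quotient.nontrivial_iff]
    intro h
    apply hcM.not_ge
    intro v hv
    have : (⟨v, hv⟩ : M) ∈ c' := h ▸ Submodule.mem_top
    exact this
  have hcard : p ∣ Nat.card (M ⧸ c') := by
    have : Module.Finite F (M ⧸ c') := inferInstance
    have h1 : Nat.card (M ⧸ c') = Nat.card F ^ finrank F (M ⧸ c') := Module.natCard_eq_pow_finrank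
    rw [h1]
    have h2 : 0 < finrank F (M ⧸ c') := Module.finrank_pos
    have h3 : p ∣ Nat.card F := by
      have : Fintype F := Fintype.ofFinite F
      obtain ⟨n, -, hn⟩ := FiniteField.card F p
      rw [Nat.card_eq_fintype_card, hn]
      exact dvd_pow_self p n.ne_zero
    exact dvd_pow h3 h2.ne'
  have h0 : (0 : M ⧸ c') ∈ MulAction.fixedPoints U (M ⧸ c') := by
    intro u
    show c'.mapQ c' (act u) (hact u) 0 = 0
    exact map_zero _
  obtain ⟨x, hx, hx0⟩ := hU.exists_fixed_point_of_prime_dvd_card_of_fixed_point (M ⧸ c') hcard h0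
  obtain ⟨x, rfl⟩ := c'.mkQ_surjective x
  refine ⟨x, x.2, fun h => hx0 ?_, fun u hu => ?_⟩
  · symm
    rw [Submodule.mkQ_apply, Submodule.Quotient.mk_eq_zero]
    exact h
  · have h1 := hx ⟨u, hu⟩
    change c'.mapQ c' (act ⟨u, hu⟩) (hact _) (c'.mkQ x) = c'.mkQ x at h1
    rw [Submodule.mkQ_apply, Submodule.mapQ_apply, Submodule.Quotient.eq] at h1
    exact h1

/-- one step of an invariant flag -/
theorem exists_succ {p : ℕ} [Fact p.Prime] [CharP F p] [Finite F] [FiniteDimensional F V] {ρ : G →* (V ≃ₗ[F] V)}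
    {U : Subgroup G} (hU : IsPGroup p U) {c M : Submodule F V} (hcM : c < M)
    (hc : ∀ u ∈ U, ∀ v ∈ c, ρ u v ∈ c) (hM : ∀ u ∈ U, ∀ v ∈ M, ρ u v ∈ M) :
    ∃ L : Submodule F V, c ≤ L ∧ L ≤ M ∧ finrank F L = finrank F c + 1 ∧ ∀ u ∈ U, ∀ v ∈ L, ρ u v ∈ L := by
  obtain ⟨v, hvM, hvc, hv⟩ := exists_fix hU hcM hc hM
  refine ⟨c ⊔ F ∙ v, le_sup_left, sup_le hcM.le (by simpa using hvM), ?_, fun u hu w hw => ?_⟩
  · apply le_antisymm
    · refine (Submodule.finrank_add_le_finrank_add_finrank _ _).trans ?_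
      have := finrank_span_singleton (K := F) (v := v) (by rintro rfl; exact hvc c.zero_mem)
      omega
    · have h3 : c < c ⊔ F ∙ v := by
        refine lt_of_le_of_ne le_sup_left fun heq => hvc ?_
        rw [heq]
        exact le_sup_right (a := c) (Submodule.mem_span_singleton_self v)
      exact Submodule.finrank_lt_finrank_of_lt h3
  · obtain ⟨x, hx, y, hy, rfl⟩ := Submodule.mem_sup.1 hw
    obtain ⟨t, rfl⟩ := Submodule.mem_span_singleton.1 hy
    have e : ρ u (x + t • v) = (ρ u x + t • (ρ u v - v)) + t • v := by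
      rw [map_add, map_smul, smul_sub]; abel
    rw [e]
    exact Submodule.add_mem_sup (c.add_mem (hc u hu x hx) (c.smul_mem t (hv u hu)))
      (Submodule.smul_mem _ t (Submodule.mem_span_singleton_self v))

end Cfsg.Agent.H160.DP
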